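import Cfsg.Agent.H777.Th3.ThNV

/-!
# Strongly closed subgroups contain everything (helper777)
-/

set_option autoImplicit false
set_option linter.unusedSimpArgs false
set_option linter.unusedVariables false
set_option synthInstance.maxHeartbeats 400000
set_option synthInstance.maxSize 2000

namespace Cfsg.Agent.H777.Th3

open Dat

theorem dec_span : ∀ q : Q4, ∃ i j k l : ZMod 3,
    q = i.val • ((0, 0, 1, 0) : Q4) + j.val • ((2, 0, 2, 1) : Q4) + k.val • sg (2, 0, 2, 1) +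
      l.val • sg (sg (2, 0, 2, 1)) := by decide +kernel

theorem val_two' : (2 : ZMod 3).val = 2 := rfl

/-- evaluation of a product -/
theorem m2_conj_e2 : em2⁻¹ * thDat.uu (0, 2, 2, 1, 2) * em2 = thDat.uu (2, 0, 1, 2, 2) := by
  have c1 : ∀ {x w : Cfsg.Spor.Th}, x * em2 = em2 * w → em2⁻¹ * x * em2 = w := by
    intro x w h
    rw [mul_assoc, h, inv_mul_cancel_left]
  have k2 : em2⁻¹ * thDat.u2 * em2 = thDat.u1 := c1 m2_u2
  have k3 : em2⁻¹ * thDat.u3 * em2 = thDat.u3 ^ 2 := c1 m2_u3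
  have k4 : em2⁻¹ * thDat.u4 * em2 = thDat.u4 ^ 2 := c1 m2_u4
  have k5 : em2⁻¹ * thDat.u5 * em2 = thDat.u5 := c1 m2_u5
  have e1 : thDat.uu (0, 2, 2, 1, 2) = thDat.u2 ^ 2 * thDat.u3 ^ 2 * thDat.u4 * thDat.u5 ^ 2 := by
    simp [uu, val_two', ZMod.val_one]
  have e2 : em2⁻¹ * thDat.uu (0, 2, 2, 1, 2) * em2 =
      (em2⁻¹ * thDat.u2 * em2) ^ 2 * (em2⁻¹ * thDat.u3 * em2) ^ 2 * (em2⁻¹ * thDat.u4 * em2) *
        (em2⁻¹ * thDat.u5 * em2) ^ 2 := by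
    rw [e1]
    simp only [pow_two]
    group
  rw [e2, k2, k3, k4, k5]
  have e3 : (thDat.u3 ^ 2) ^ 2 = thDat.u3 := by
    have h := thDat.c3
    calc (thDat.u3 ^ 2) ^ 2 = thDat.u3 ^ 3 * thDat.u3 := by rw [← pow_mul, ← pow_succ]
      _ = thDat.u3 := by rw [h, one_mul]
  rw [e3]
  simp [uu, val_two', ZMod.val_one]

theorem chain (A : Subgroup Cfsg.Spor.Th) (hAS : A ≤ thDat.Sg)
    (hconj : ∀ s ∈ thDat.Sg, ∀ a ∈ A, s⁻¹ * a * s ∈ A)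
    (hfuse : ∀ m e p₁ p₂ : Cfsg.Spor.Th, e ∈ A → m⁻¹ * e * m ∈ thDat.Sg → p₁ ∈ thDat.Sg → p₂ ∈ thDat.Sg →
      p₁ * p₂ ≠ p₂ * p₁ → m⁻¹ * p₁ * m ∈ thDat.Sg → m⁻¹ * p₂ * m ∈ thDat.Sg → m⁻¹ * e * m ∈ A)
    (hu1 : thDat.u1 ∈ A) : A = thDat.Sg := by
  have h1 := th_u1_ne
  have c1 : ∀ {m x w : Cfsg.Spor.Th}, x * m = m * w → m⁻¹ * x * m = w := by
    intro m x w h
    rw [mul_assoc, h, inv_mul_cancel_left]
  have hU : ∀ e : V5, thDat.uu e ∈ thDat.Sg := fun e => thDat.U_le_Sg (thDat.uu_mem e)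
  have hu : ∀ {x : Cfsg.Spor.Th}, x ∈ thDat.U → x ∈ thDat.Sg := fun h => thDat.U_le_Sg h
  -- the two nonabelian pairs
  have hne2 : thDat.u5 * thDat.v1 ≠ thDat.v1 * thDat.u5 := by
    intro h
    have h2 : thDat.uu (0, 0, 0, 0, 1) * thDat.v1 = thDat.v1 * thDat.uu (0, 0, 0, 0, 1) := by
      rw [uu_5]; exact h
    have h3 := act_v1 (D := thDat) (0, 0, 0, 0, 1)
    rw [mul_assoc, h2, inv_mul_cancel_left] at h3
    exact absurd (uu_injective h1 h3) (by decide)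
  have hne1 : thDat.r1 * thDat.r2 ≠ thDat.r2 * thDat.r1 := by
    intro h
    have h2 := thDat.j_r1_r2
    rw [h] at h2
    have h3 : thDat.r1 = thDat.u3 * thDat.u4 ^ 2 * thDat.u5 * thDat.r1 := by
      have h4 : thDat.r2 * thDat.r1 = thDat.r2 * (thDat.u3 * thDat.u4 ^ 2 * thDat.u5 * thDat.r1) := by
        rw [h2]; simp only [mul_assoc]
      exact mul_left_cancel h4
    have h4 : thDat.u3 * thDat.u4 ^ 2 * thDat.u5 = 1 := by
      have h5 : 1 * thDat.r1 = (thDat.u3 * thDat.u4 ^ 2 * thDat.u5) * thDat.r1 := by rw [one_mul]; exact h3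
      exact (mul_right_cancel h5).symm
    have h5 : thDat.uu (0, 0, 1, 2, 1) = thDat.uu 0 := by
      rw [uu_zero, ← h4]
      simp [uu, val_two', ZMod.val_one]
    exact absurd (uu_injective h1 h5) (by decide)
  have fuse2 : ∀ e w : Cfsg.Spor.Th, e ∈ A → em2⁻¹ * e * em2 = w → w ∈ thDat.Sg → w ∈ A := by
    intro e w he hw hwS
    rw [← hw] at hwS ⊢
    refine hfuse em2 e thDat.u5 thDat.v1 he hwS (hu thDat.u5_mem) v1_Sg hne2 ?_ ?_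
    · rw [c1 m2_u5]; exact hu thDat.u5_mem
    · rw [c1 (by rw [m2_v1, mul_assoc] : thDat.v1 * em2 = em2 * (thDat.u2 * thDat.v2 ^ 2))]
      exact thDat.Sg.mul_mem (hu thDat.u2_mem) (thDat.Sg.pow_mem v2_Sg 2)
  have fuse1 : ∀ e w : Cfsg.Spor.Th, e ∈ A → em1⁻¹ * e * em1 = w → w ∈ thDat.Sg → w ∈ A := by
    intro e w he hw hwS
    rw [← hw] at hwS ⊢
    refine hfuse em1 e thDat.r1 thDat.r2 he hwS r1_Sg r2_Sg hne1 ?_ ?_
    · rw [c1 m1_r1]; exact thDat.Sg.pow_mem r1_Sg 2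
    · rw [c1 (by rw [m1_r2, mul_assoc] : thDat.r2 * em1 = em1 * (thDat.u4 * thDat.r2 ^ 2))]
      exact thDat.Sg.mul_mem (hu thDat.u4_mem) (thDat.Sg.pow_mem r2_Sg 2)
  -- vectors
  have hadd : ∀ e f : V5, thDat.uu e ∈ A → thDat.uu f ∈ A → thDat.uu (e + f) ∈ A := fun e f he hf => by
    rw [uu_add]; exact A.mul_mem he hf
  have hnsmul : ∀ (n : ℕ) (e : V5), thDat.uu e ∈ A → thDat.uu (n • e) ∈ A := fun n e he => by
    rw [uu_nsmul]; exact A.pow_mem he n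
  have a1 : thDat.uu (1, 0, 0, 0, 0) ∈ A := by rw [uu_1]; exact hu1
  have a2 : thDat.uu (0, 1, 0, 0, 0) ∈ A := by
    have h2 := fuse2 _ _ hu1 (c1 m2_u1) (thDat.Sg.pow_mem (hu thDat.u2_mem) 2)
    have h3 : thDat.uu (0, 1, 0, 0, 0) = (thDat.u2 ^ 2) ^ 2 := by
      rw [uu_2]
      have h := thDat.c2
      symm
      calc (thDat.u2 ^ 2) ^ 2 = thDat.u2 ^ 3 * thDat.u2 := by rw [← pow_mul, ← pow_succ]
        _ = thDat.u2 := by rw [h, one_mul]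
    rw [h3]
    exact A.pow_mem h2 2
  have a3 : thDat.uu (0, 2, 2, 1, 2) ∈ A := by
    have h2 : em1⁻¹ * thDat.u2 * em1 = thDat.uu (0, 2, 2, 1, 2) := by
      rw [c1 (w := thDat.u2 ^ 2 * thDat.u3 ^ 2 * thDat.u4 * thDat.u5 ^ 2) (by rw [m1_u2]; simp only [mul_assoc])]
      simp [uu, val_two', ZMod.val_one]
    exact fuse1 _ _ (by rw [← uu_2]; exact a2) h2 (hU _)
  have a4 : thDat.uu (2, 0, 1, 2, 2) ∈ A := fuse2 _ _ a3 m2_conj_e2 (hU _)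
  have a5 : thDat.uu (0, 0, 0, 0, 1) ∈ A := by
    have h2 := hadd _ _ (hadd _ _ (hadd _ _ a3 a4) a1) a2
    exact h2
  have a6 : thDat.uu (0, 0, 1, 0, 0) ∈ A := by
    have h2 := hconj _ thDat.x0_Sg _ a5
    rw [act_x0] at h2
    have h3 := hnsmul 2 _ h2
    have h4 := hadd _ _ (hadd _ _ h3 a1) (hnsmul 2 _ a2)
    exact h4
  have a7 : thDat.uu (0, 0, 0, 1, 0) ∈ A := by
    have h2 := hadd _ _ (hadd _ _ (hadd _ _ a3 a2) a6) a5
    exact h2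
  have hUA : thDat.U ≤ A := by
    intro x hx
    obtain ⟨e, rfl⟩ := (thDat.mem_U).1 hx
    rw [decomp e]
    exact hadd _ _ (hadd _ _ (hadd _ _ (hadd _ _ (hnsmul _ _ a1) (hnsmul _ _ a2)) (hnsmul _ _ a6)) (hnsmul _ _ a7))
      (hnsmul _ _ a5)
  -- the elements outside `U`
  have b1 : thDat.r1 ∈ A := by
    have hw : thDat.u1 * thDat.u2 * thDat.u3 ^ 2 * thDat.u4 ∈ thDat.U :=
      thDat.U.mul_mem (thDat.U.mul_mem (thDat.U.mul_mem thDat.u1_mem thDat.u2_mem) (thDat.U.pow_mem thDat.u3_mem 2)) thDat.u4_mem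
    have h2 := fuse1 _ _ (hUA thDat.u5_mem)
      (c1 (w := thDat.u1 * thDat.u2 * thDat.u3 ^ 2 * thDat.u4 * thDat.r1) (by rw [m1_u5]; simp only [mul_assoc]))
      (thDat.Sg.mul_mem (hu hw) r1_Sg)
    exact (A.mul_mem_cancel_left (hUA hw)).1 h2
  have b2 : thDat.v1 ^ 2 * thDat.r1 ^ 2 * thDat.r2 ∈ A := by
    have hw : thDat.u1 ^ 2 * thDat.u2 * thDat.u3 * thDat.u4 ∈ thDat.U :=
      thDat.U.mul_mem (thDat.U.mul_mem (thDat.U.mul_mem (thDat.U.pow_mem thDat.u1_mem 2) thDat.u2_mem) thDat.u3_mem) thDat.u4_mem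
    have hs : thDat.v1 ^ 2 * thDat.r1 ^ 2 * thDat.r2 ∈ thDat.Sg :=
      thDat.Sg.mul_mem (thDat.Sg.mul_mem (thDat.Sg.pow_mem v1_Sg 2) (thDat.Sg.pow_mem r1_Sg 2)) r2_Sg
    have h2 := fuse2 _ _ b1
      (c1 (w := (thDat.u1 ^ 2 * thDat.u2 * thDat.u3 * thDat.u4) * (thDat.v1 ^ 2 * thDat.r1 ^ 2 * thDat.r2))
        (by rw [m2_r1]; simp only [mul_assoc]))
      (thDat.Sg.mul_mem (hu hw) hs)
    exact (A.mul_mem_cancel_left (hUA hw)).1 h2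
  -- all of `T`
  have hTA : thDat.Tg ≤ A := by
    have hT2 : thDat.v1 ^ 2 * thDat.r1 ^ 2 * thDat.r2 ∈ thDat.Tg :=
      thDat.Tg.mul_mem (thDat.Tg.mul_mem (thDat.Tg.pow_mem thDat.v1_Tg 2) (thDat.Tg.pow_mem thDat.r1_Tg 2)) thDat.r2_Tg
    have hq2 : thDat.qT (thDat.v1 ^ 2 * thDat.r1 ^ 2 * thDat.r2) = (2, 0, 2, 1) := by
      have := qT_w4 h1 (D := thDat) 0 2 0 2 1
      rw [uu_zero, one_mul] at this
      rw [← this]
      simp [w4, val_two', ZMod.val_one]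
    have hq1 : thDat.qT thDat.r1 = (0, 0, 1, 0) := by
      have := qT_w4 h1 (D := thDat) 0 0 0 1 0
      rw [uu_zero, one_mul] at this
      rw [← this]
      simp [w4, ZMod.val_one]
    generalize thDat.v1 ^ 2 * thDat.r1 ^ 2 * thDat.r2 = y at b2 hT2 hq2
    have hT3 := thDat.conj_x0_Tg y hT2
    have hT4 := thDat.conj_x0_Tg _ hT3
    have hq3 := qT_conj_x0 h1 hT2
    have hq4 := qT_conj_x0 h1 hT3
    have hA3 := hconj _ thDat.x0_Sg _ b2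
    have hA4 := hconj _ thDat.x0_Sg _ hA3
    rw [hq2] at hq3
    rw [hq3] at hq4
    generalize thDat.x0⁻¹ * (thDat.x0⁻¹ * y * thDat.x0) * thDat.x0 = y3 at hT4 hq4 hA4
    generalize thDat.x0⁻¹ * y * thDat.x0 = y2 at hT3 hq3 hA3
    intro x hx
    obtain ⟨i, j, k, l, hq⟩ := dec_span (thDat.qT x)
    set w := thDat.r1 ^ i.val * y ^ j.val * y2 ^ k.val * y3 ^ l.val with hw
    have hwA : w ∈ A := A.mul_mem (A.mul_mem (A.mul_mem (A.pow_mem b1 _) (A.pow_mem b2 _)) (A.pow_mem hA3 _)) (A.pow_mem hA4 _)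
    have hw1 := thDat.Tg.pow_mem thDat.r1_Tg i.val
    have hw2 := thDat.Tg.pow_mem hT2 j.val
    have hw3 := thDat.Tg.pow_mem hT3 k.val
    have hw4 := thDat.Tg.pow_mem hT4 l.val
    have hwT : w ∈ thDat.Tg := thDat.Tg.mul_mem (thDat.Tg.mul_mem (thDat.Tg.mul_mem hw1 hw2) hw3) hw4
    have hwq : thDat.qT w = thDat.qT x := by
      rw [hw, qT_mul h1 (thDat.Tg.mul_mem (thDat.Tg.mul_mem hw1 hw2) hw3) hw4, qT_mul h1 (thDat.Tg.mul_mem hw1 hw2) hw3,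
        qT_mul h1 hw1 hw2, qT_pow h1 thDat.r1_Tg, qT_pow h1 hT2, qT_pow h1 hT3, qT_pow h1 hT4, hq1, hq2, hq3, hq4, hq]
    have hxw : w⁻¹ * x ∈ thDat.U := by
      rw [mem_U_iff_qT h1 (thDat.Tg.mul_mem (thDat.Tg.inv_mem hwT) hx), qT_mul h1 (thDat.Tg.inv_mem hwT) hx,
        qT_inv h1 hwT, hwq, neg_add_cancel]
    have h2 := A.mul_mem hwA (hUA hxw)
    rwa [mul_inv_cancel_left] at h2
  have b3 : thDat.x0 ∈ A := by
    have hw : thDat.u1 * thDat.u3 * thDat.r1 ^ 2 * thDat.r2 ^ 2 ∈ thDat.Tg :=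
      thDat.Tg.mul_mem (thDat.Tg.mul_mem (thDat.Tg.mul_mem (thDat.U_le_Tg thDat.u1_mem) (thDat.U_le_Tg thDat.u3_mem))
        (thDat.Tg.pow_mem thDat.r1_Tg 2)) (thDat.Tg.pow_mem thDat.r2_Tg 2)
    have h2 := fuse1 _ _ (hTA (thDat.Tg.mul_mem thDat.v1_Tg thDat.v2_Tg))
      (c1 (w := thDat.u1 * thDat.u3 * thDat.r1 ^ 2 * thDat.r2 ^ 2 * thDat.x0) (by rw [m1_v1_v2]; simp only [mul_assoc]))
      (thDat.Sg.mul_mem (thDat.Tg_le_Sg hw) thDat.x0_Sg)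
    exact (A.mul_mem_cancel_left (hTA hw)).1 h2
  exact le_antisymm hAS (adj_le hTA b3)

end Cfsg.Agent.H777.Th3
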