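import Cfsg.Agent.H777.Th3.ThCore
import Cfsg.Agent.H777.Th3.Ord27
import Cfsg.Agent.H777.Count
import Cfsg.Agent.H777.ElimDef
import Cfsg.Agent.H759.FusTransportD

/-!
# The pruned system is not realized by a finite group (helper777)
-/

set_option autoImplicit false
set_option linter.unusedSimpArgs false
set_option linter.unusedVariables false

namespace Cfsg.Agent.H777.Th3

open Dat Cfsg Cfsg.FusionSystem Cfsg.Agent.H802 Cfsg.Agent.H759 Cfsg.Agent.H777.Prune Cfsg.Agent.H777.Real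
  Cfsg.Agent.H777.Elim

universe u v

/-- **Non-realizability**, given the recognition of the Thompson group among the simple groups. -/
theorem not_realized {P : Type u} [Group P] [Finite P] {f : P →* Cfsg.Spor.Th} (hf : Function.Injective f)
    (hfr : f.range = thDat.Sg) {X : FusionSystem (⊤ : Subgroup P)} (hX : IsPush hf X ETh)
    {G : Type v} [Group G] [Finite G] (ι : P →* G) (hι : Function.Injective ι) (T : Sylow 3 G)
    (hT : (T : Subgroup G) = ι.range)
    (hreal : ∀ (Q : Subgroup P) (φ : Q →* P), φ ∈ X.Hom Q ↔ Fus ι φ)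
    (helim : ∀ (K : Type v) [Group K] [Finite K] [IsSimpleGroup K], Vn 10 K → (∃ x : K, orderOf x = 27) → ¬ Big K →
      Nonempty (K ≃* Cfsg.Spor.Th)) : False := by
  have hcP : Nat.card P = 3 ^ 10 := by
    rw [Nat.card_congr (MonoidHom.ofInjective hf).toEquiv, hfr, card_Sg th_u1_ne]
  have hP : IsPGroup 3 P := IsPGroup.of_card hcP
  have hmemf : ∀ x, f x ∈ thDat.Sg := fun x => by rw [← hfr]; exact ⟨x, rfl⟩
  have hsc : ∀ A : Subgroup P, (∀ a ∈ A, ∀ b : P, (∃ g : G, ι b = g * ι a * g⁻¹) → b ∈ A) → A = ⊥ ∨ A = ⊤ := by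
    intro A hA
    have h1 : X.StronglyClosed A := by
      refine ⟨le_top, fun R hR φ hφ x => ?_⟩
      obtain ⟨g, hg⟩ := (hreal R φ).1 hφ
      exact hA _ (hR x.2) _ ⟨g, hg x⟩
    rcases stronglyClosed_ETh (hX.stronglyClosed_iff.2 h1) with h | h
    · left
      exact (Subgroup.map_eq_bot_iff_of_injective _ hf).1 h
    · right
      apply Subgroup.map_injective hf
      rw [h, ← hfr, MonoidHom.range_eq_map]
  obtain ⟨z, hz⟩ : ∃ z, f z = thDat.u1 := by
    have h1 : thDat.u1 ∈ f.range := by rw [hfr]; exact thDat.U_le_Sg thDat.u1_mem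
    exact h1
  have hz1 : z ≠ 1 := by
    rintro rfl
    rw [map_one] at hz
    exact th_u1_ne hz.symm
  have hzmin : ∀ B : Subgroup P, B.Normal → B ≠ ⊥ → z ∈ B := by
    intro B hBn hB1
    obtain ⟨b, hb, hb1, hbc⟩ := PGrp.inf_center_ne_bot hP hB1 hBn
    have hbc' : ∀ s ∈ thDat.Sg, f b * s = s * f b := by
      intro s hs
      rw [← hfr] at hs
      obtain ⟨y, rfl⟩ := hs
      rw [← map_mul, ← map_mul, hbc y]
    obtain ⟨k, hk⟩ := center_eq th_u1_ne (hmemf b) hbc'
    have hk3 : ∀ k : ZMod 3, k = 0 ∨ k = 1 ∨ k = 2 := by decide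
    rcases hk3 k with rfl | rfl | rfl
    · exfalso
      apply hb1
      apply hf
      rw [hk, map_one]; simp
    · have h2 : b = z := by
        apply hf
        rw [hk, hz]
        simp [ZMod.val_one]
      rwa [← h2]
    · have h2 : b ^ 2 = z := by
        apply hf
        rw [map_pow, hk, hz]
        show (thDat.u1 ^ 2) ^ 2 = thDat.u1
        have h := thDat.c1
        calc (thDat.u1 ^ 2) ^ 2 = thDat.u1 ^ 3 * thDat.u1 := by rw [← pow_mul, ← pow_succ]
          _ = thDat.u1 := by rw [h, one_mul]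
      rw [← h2]
      exact B.pow_mem hb 2
  obtain ⟨K, _, _, κ, hs, hκ, ⟨T', hT'⟩, hfus⟩ := exists_simple hP ι hι T hT hsc z hz1 hzmin
  -- the order of `K`
  have hcard : Nat.card T' = 3 ^ 10 := by
    show Nat.card (T' : Subgroup K) = 3 ^ 10
    rw [hT', ← Nat.card_congr (MonoidHom.ofInjective hκ).toEquiv, hcP]
  have hV : Vn 10 K := by
    have h1 : (Nat.card K).factorization 3 = 10 := by
      have h2 := T'.card_eq_multiplicity
      rw [hcard] at h2
      exact (Nat.pow_right_injective (le_refl 2 |>.trans (by norm_num : 2 ≤ 3)) h2).symm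
    constructor
    · rw [Nat.prime_three.pow_dvd_iff_le_factorization Nat.card_pos.ne', h1]
    · rw [Nat.prime_three.pow_dvd_iff_le_factorization Nat.card_pos.ne', h1]
      norm_num
  have h27 : ∃ x : K, orderOf x = 27 := by
    obtain ⟨y, hy, hyo⟩ := exists_order27
    rw [← hfr] at hy
    obtain ⟨y, rfl⟩ := hy
    refine ⟨κ y, ?_⟩
    rw [orderOf_injective κ hκ]
    rwa [orderOf_injective f hf] at hyo
  -- conjugation of a 3-subgroup into the image of `κ`
  have hconj : ∀ A : Subgroup K, IsPGroup 3 A → ∃ g : K, ∀ a ∈ A, ∃ y : P, κ y = g * a * g⁻¹ := by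
    intro A hA
    obtain ⟨Q, hQ⟩ := hA.exists_le_sylow
    obtain ⟨g, hg⟩ := MulAction.exists_smul_eq K Q T'
    refine ⟨g, fun a ha => ?_⟩
    have h1 : g * a * g⁻¹ ∈ (T' : Subgroup K) := by
      rw [← hg, Sylow.coe_subgroup_smul]
      exact ⟨a, hQ ha, rfl⟩
    rw [hT'] at h1
    obtain ⟨y, hy⟩ := h1
    exact ⟨y, hy⟩
  have hB : ¬ Big K := by
    rintro (⟨A, hA, hab, hc⟩ | ⟨x, hx⟩)
    · obtain ⟨g, hg⟩ := hconj A hA
      set B : Subgroup P := (cj A g⁻¹).comap κ with hBdef
      have hmB : ∀ y, y ∈ B ↔ g⁻¹ * κ y * g ∈ A := by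
        intro y
        show g⁻¹ * κ y * g⁻¹⁻¹ ∈ A ↔ _
        rw [inv_inv]
      have hBab : ∀ x ∈ B.map f, ∀ y ∈ B.map f, x * y = y * x := by
        rintro _ ⟨x, hx, rfl⟩ _ ⟨y, hy, rfl⟩
        have h1 := hab _ ((hmB x).1 hx) _ ((hmB y).1 hy)
        have h2 : κ x * κ y = κ y * κ x := by
          have e1 : g⁻¹ * κ x * g * (g⁻¹ * κ y * g) = g⁻¹ * (κ x * κ y) * g := by group
          have e2 : g⁻¹ * κ y * g * (g⁻¹ * κ x * g) = g⁻¹ * (κ y * κ x) * g := by group
          rw [e1, e2] at h1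
          exact mul_left_cancel (mul_right_cancel h1)
        have h3 : x * y = y * x := hκ (by rw [map_mul, map_mul, h2])
        rw [← map_mul, ← map_mul, h3]
      have hle := abelian_Sg th_u1_ne (A := B.map f) (by
        rintro _ ⟨x, -, rfl⟩
        exact hmemf x) hBab
      rw [← Nat.card_congr (B.equivMapOfInjective f hf).toEquiv] at hle
      have h1 : Nat.card A ≤ Nat.card B := by
        choose y hy using hg
        refine Nat.card_le_card_of_injective (fun a : A => (⟨y a a.2, (hmB _).2 (by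
          rw [hy]
          have : g⁻¹ * (g * (a : K) * g⁻¹) * g = a := by group
          rw [this]
          exact a.2)⟩ : B)) ?_
        intro a a' h
        have h2 : y a a.2 = y a' a'.2 := congrArg Subtype.val h
        have h3 : g * (a : K) * g⁻¹ = g * (a' : K) * g⁻¹ := by rw [← hy a a.2, ← hy a' a'.2, h2]
        exact Subtype.ext (mul_left_cancel (mul_right_cancel h3))
      have h2 := hc.trans (h1.trans hle)
      norm_num at h2
    · have hA : IsPGroup 3 (Subgroup.zpowers x) := by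
        apply IsPGroup.of_card (n := 4)
        rw [Nat.card_zpowers, hx]
        norm_num
      obtain ⟨g, hg⟩ := hconj _ hA
      obtain ⟨y, hy⟩ := hg x (Subgroup.mem_zpowers x)
      have h1 : f y ^ 27 = 1 := pow27 th_u1_ne (hmemf y)
      have h2 : y ^ 27 = 1 := hf (by rw [map_pow, h1, map_one])
      have h3 : (g * x * g⁻¹) ^ 27 = 1 := by rw [← hy, ← map_pow, h2, map_one]
      rw [conj_pow] at h3
      have h4 : x ^ 27 = 1 := by
        calc x ^ 27 = g⁻¹ * (g * x ^ 27 * g⁻¹) * g := by group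
          _ = 1 := by rw [h3]; group
      have h5 := orderOf_dvd_of_pow_eq_one h4
      rw [hx] at h5
      norm_num at h5
  obtain ⟨e⟩ := helim K hV h27 hB
  -- the second embedding into the Thompson group
  set κ' : P →* Cfsg.Spor.Th := e.toMonoidHom.comp κ with hκ'
  have hκ'i : Function.Injective κ' := e.injective.comp hκ
  have hFκ : ∀ (Q : Subgroup P) (φ : Q →* P), Fus κ' φ ↔ Fus κ φ := by
    intro Q φ
    constructor
    · rintro ⟨g, hg⟩
      refine ⟨e.symm g, fun x => ?_⟩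
      apply e.injective
      have h1 := hg x
      rw [map_mul, map_mul, map_inv, MulEquiv.apply_symm_apply]
      exact h1
    · rintro ⟨g, hg⟩
      refine ⟨e g, fun x => ?_⟩
      show e (κ (φ x)) = e g * e (κ x) * (e g)⁻¹
      rw [hg, map_mul, map_mul, map_inv]
  let T₂ : Sylow 3 Cfsg.Spor.Th := Sylow.ofCard κ'.range (by
    rw [← Nat.card_congr (MonoidHom.ofInjective hκ'i).toEquiv, hcP, ← card_Sg (D := thDat) th_u1_ne]
    exact T0.card_eq_multiplicity)
  have hsub : ∀ (Q : Subgroup P) (φ : Q →* P), φ ∈ X.Hom Q → Fus f φ := by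
    intro Q φ hφ
    have h1 := (hX.hom Q φ).2 hφ
    obtain ⟨-, -, g, hg⟩ := prune_le _ h1
    refine ⟨g, fun x => ?_⟩
    have h2 := hg (eqv hf Q x)
    rw [cb_eqv] at h2
    exact h2
  have hall := fus_iff_of_le (f := f) (κ := κ') hf hκ'i T0 T₂ (by rw [hfr]; rfl) rfl (fun Q φ h =>
    hsub Q φ ((hreal Q φ).2 (hfus Q φ ((hFκ Q φ).1 h))))
  -- the contradiction
  obtain ⟨Q, hQ⟩ := exists_eq_map (f := f) (P' := thDat.Vs) (by rw [hfr]; exact Vs_le)
  have hex : ∃ φ ∈ FTh.Hom (Q.map f), φ ∉ ETh.Hom (Q.map f) := hQ ▸ exists_not_mem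
  obtain ⟨φ', hφ', hnot⟩ := hex
  obtain ⟨φ, rfl⟩ := exists_eq_cb hf φ' (fun y => by rw [hfr]; exact (FTh.le_of_mem hφ').2 y)
  apply hnot
  rw [hX.hom, hreal]
  have h1 : Fus f φ := by
    obtain ⟨-, -, g, hg⟩ := hφ'
    refine ⟨g, fun x => ?_⟩
    have h2 := hg (eqv hf Q x)
    rw [cb_eqv] at h2
    exact h2
  exact hfus Q φ ((hFκ Q φ).1 (hall Q φ h1))

end Cfsg.Agent.H777.Th3
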