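import Cfsg.Agent.H777.Th3.ThPrune

/-!
# The core of the pruned system, and a map which is not in it (helper777)
-/

set_option autoImplicit false
set_option linter.unusedSimpArgs false
set_option linter.unusedVariables false

namespace Cfsg.Agent.H777.Th3

open Dat Cfsg Cfsg.FusionSystem Cfsg.Agent.H802 Cfsg.Agent.H777.Prune

theorem c1' {m x w : Cfsg.Spor.Th} (h : x * m = m * w) : m⁻¹ * x * m = w := by
  rw [mul_assoc, h, inv_mul_cancel_left]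

/-- the whole of `S` is not normal -/
theorem not_isNormal_top : ¬ ETh.IsNormal thDat.Sg := by
  rintro ⟨-, h⟩
  set P := Subgroup.closure ({thDat.u1, thDat.u5, thDat.v1} : Set Cfsg.Spor.Th) with hP
  have h1P : thDat.u1 ∈ P := Subgroup.subset_closure (by simp)
  have h5P : thDat.u5 ∈ P := Subgroup.subset_closure (by simp)
  have hvP : thDat.v1 ∈ P := Subgroup.subset_closure (by simp)
  have hPS : P ≤ thDat.Sg := by
    rw [hP, Subgroup.closure_le]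
    rintro x (rfl | rfl | rfl)
    · exact thDat.U_le_Sg thDat.u1_mem
    · exact thDat.U_le_Sg thDat.u5_mem
    · exact v1_Sg
  have hPm : P ≤ thDat.Sg.comap (MulAut.conj em2⁻¹).toMonoidHom := by
    rw [hP, Subgroup.closure_le]
    rintro x (rfl | rfl | rfl)
    · show em2⁻¹ * thDat.u1 * em2⁻¹⁻¹ ∈ thDat.Sg
      rw [inv_inv, c1' m2_u1]; exact thDat.Sg.pow_mem (thDat.U_le_Sg thDat.u2_mem) 2
    · show em2⁻¹ * thDat.u5 * em2⁻¹⁻¹ ∈ thDat.Sg
      rw [inv_inv, c1' m2_u5]; exact thDat.U_le_Sg thDat.u5_mem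
    · show em2⁻¹ * thDat.v1 * em2⁻¹⁻¹ ∈ thDat.Sg
      rw [inv_inv, c1' (by rw [m2_v1, mul_assoc] : thDat.v1 * em2 = em2 * (thDat.u2 * thDat.v2 ^ 2))]
      exact thDat.Sg.mul_mem (thDat.U_le_Sg thDat.u2_mem) (thDat.Sg.pow_mem v2_Sg 2)
  have hmem := conj_mem_ETh (g := em2⁻¹) hPS h5P hvP nab (fun x hx => hPm hx)
  obtain ⟨ψ, hψ, h2, h3⟩ := h P _ hmem
  have hψF := prune_le _ hψ
  obtain ⟨-, -, g, hg⟩ := hψF
  have hx0 : thDat.x0 ∈ P ⊔ thDat.Sg := (le_sup_right : thDat.Sg ≤ P ⊔ thDat.Sg) thDat.x0_Sg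
  -- `x0` is in the image
  have h4 : thDat.x0 ∈ (thDat.Sg.subgroupOf (P ⊔ thDat.Sg)).map ψ := by rw [h3]; exact thDat.x0_Sg
  obtain ⟨y, hy, hyx⟩ := h4
  have hyS : (y : Cfsg.Spor.Th) ∈ thDat.Sg := hy
  have h5 := h2 ⟨thDat.u1, h1P⟩
  rw [hg] at h5 hyx
  have h6 : g * thDat.u1 * g⁻¹ = thDat.u2 ^ 2 := by
    have h7 : g * thDat.u1 * g⁻¹ = em2⁻¹ * thDat.u1 * em2⁻¹⁻¹ := h5
    rw [h7, inv_inv, c1' m2_u1]
  have h8 : thDat.u1 * (y : Cfsg.Spor.Th) = y * thDat.u1 := by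
    have := conj_u1 hyS
    calc thDat.u1 * (y : Cfsg.Spor.Th) = y * ((y : Cfsg.Spor.Th)⁻¹ * thDat.u1 * y) := by group
      _ = y * thDat.u1 := by rw [this]
  have h9 : thDat.u2 ^ 2 * thDat.x0 = thDat.x0 * thDat.u2 ^ 2 := by
    rw [← h6, ← hyx]
    calc g * thDat.u1 * g⁻¹ * (g * (y : Cfsg.Spor.Th) * g⁻¹) = g * (thDat.u1 * y) * g⁻¹ := by group
      _ = g * (y * thDat.u1) * g⁻¹ := by rw [h8]
      _ = _ := by group
  have h10 := act_x0 (D := thDat) (0, 2, 0, 0, 0)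
  have h11 : thDat.uu (0, 2, 0, 0, 0) = thDat.u2 ^ 2 := by simp [uu, val_two']
  rw [h11, mul_assoc, h9, inv_mul_cancel_left, ← h11] at h10
  exact absurd (uu_injective th_u1_ne h10) (by decide)

theorem core_ETh : ETh.core = ⊥ := by
  unfold FusionSystem.core
  rw [eq_bot_iff]
  refine sSup_le fun Q hQ => ?_
  have h1 := Cfsg.Agent.H759.IsNormal.stronglyClosed hQ
  rcases stronglyClosed_ETh h1 with h | h
  · exact h.le
  · exfalso
    subst h
    exact not_isNormal_top hQ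

/-- automorphisms of `V` fixing `V ∩ U` -/
def Dst : Subgroup (MulAut thDat.Vs) where
  carrier := {α | ∀ x : thDat.Vs, (x : Cfsg.Spor.Th) ∈ thDat.U ↔ (α x : Cfsg.Spor.Th) ∈ thDat.U}
  one_mem' := fun x => Iff.rfl
  mul_mem' := fun {α β} hα hβ x => (hβ x).trans (hα _)
  inv_mem' := fun {α} hα x => by
    have := hα (α⁻¹ x)
    rw [MulAut.apply_inv_self] at this
    exact this.symm

theorem le_Dst : ∀ α ∈ FTh.autGroup thDat.Vs, Extends FTh thDat.Vs α → α ∈ Dst := by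
  rintro α hα ⟨R, hVR, hcard, ψ, ⟨hRS, hψS, h, hh⟩, hψα⟩
  -- an element of `R` normalizing `V`
  have hRp : IsPGroup 3 R := hSp.to_le hRS
  have hfR : Finite R := inferInstance
  have hne : thDat.Vs ≠ R := by
    rintro rfl
    exact lt_irrefl _ hcard
  have hlt := card_lt_card_normalizerIn hRp hVR hne
  have hex : ∃ y ∈ normalizerIn R thDat.Vs, y ∉ thDat.Vs := by
    by_contra hcon
    push Not at hcon
    have := Nat.card_mono (Set.toFinite _) (hcon : normalizerIn R thDat.Vs ≤ thDat.Vs)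
    exact absurd hlt (not_lt.2 this)
  obtain ⟨y, ⟨hyR, hyn⟩, hyV⟩ := hex
  have hyn' := Subgroup.mem_normalizer_iff''.1 hyn
  have hyN : y ∈ thDat.N := mem_N_of_norm th_u1_ne (hRS hyR) (fun v hv => (hyn' v).1 hv)
  -- conjugation by `h` preserves `V`
  have hhV : ∀ x : thDat.Vs, h * x * h⁻¹ = α x := fun x => by
    rw [← hψα x, hh]
  have hhV' : ∀ x, x ∈ thDat.Vs ↔ h * x * h⁻¹ ∈ thDat.Vs := by
    intro x
    constructor
    · intro hx
      have := hhV ⟨x, hx⟩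
      have h2 : h * x * h⁻¹ = α ⟨x, hx⟩ := this
      rw [h2]
      exact (α ⟨x, hx⟩).2
    · intro hx
      obtain ⟨z, hz⟩ := α.surjective ⟨_, hx⟩
      have h2 := hhV z
      rw [hz] at h2
      have h3 : (z : Cfsg.Spor.Th) = x := mul_left_cancel (mul_right_cancel h2)
      rw [← h3]
      exact z.2
  set y' := h * y * h⁻¹ with hy'
  have hy'S : y' ∈ thDat.Sg := by
    have := hψS ⟨y, hyR⟩
    rw [hh] at this
    exact this
  have hy'V : y' ∉ thDat.Vs := fun hc => hyV ((hhV' y).2 hc)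
  have hy'N : y' ∈ thDat.N := by
    refine mem_N_of_norm th_u1_ne hy'S (fun v hv => ?_)
    have h2 : h⁻¹ * v * h ∈ thDat.Vs := by
      rw [hhV']
      have e1 : h * (h⁻¹ * v * h) * h⁻¹ = v := by group
      rw [e1]; exact hv
    have h3 := (hyn' _).1 h2
    have h4 := (hhV' _).1 h3
    have e2 : h * (y⁻¹ * (h⁻¹ * v * h) * y) * h⁻¹ = y'⁻¹ * v * y' := by rw [hy']; group
    rwa [e2] at h4
  intro x
  have key : ∀ (v w : Cfsg.Spor.Th), v ∈ thDat.Vs → w ∈ thDat.N → w ∉ thDat.Vs → (v ∈ thDat.U ↔ v * w = w * v) :=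
    fun v w hv hw hwV => ⟨fun hu => W_central th_u1_ne hv hu hw, fun hc => mem_W_of_comm th_u1_ne hv hw hwV hc⟩
  rw [key x y x.2 hyN hyV, key (α x) y' (α x).2 hy'N hy'V, ← hhV x, hy']
  have e1 : h * (x : Cfsg.Spor.Th) * h⁻¹ * (h * y * h⁻¹) = h * (x * y) * h⁻¹ := by group
  have e2 : h * y * h⁻¹ * (h * (x : Cfsg.Spor.Th) * h⁻¹) = h * (y * x) * h⁻¹ := by group
  rw [e1, e2]
  exact ⟨fun hc => by rw [hc], fun hc => mul_left_cancel (mul_right_cancel hc)⟩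

theorem Vs_ne_Sg : thDat.Vs ≠ thDat.Sg := by
  intro h
  have h1 := card_Vs th_u1_ne (D := thDat)
  rw [h, card_Sg th_u1_ne] at h1
  norm_num at h1

/-- a map of the fusion system of the Thompson group which is not in the pruned system -/
theorem exists_not_mem : ∃ φ ∈ FTh.Hom thDat.Vs, φ ∉ ETh.Hom thDat.Vs := by
  have hg : ∀ e : V5, eg⁻¹ * thDat.vv e * eg = thDat.vv (Gm e) := eg_actV
  have hgV : ∀ x, x ∈ thDat.Vs ↔ eg⁻¹ * x * eg ∈ thDat.Vs := by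
    refine conj_iff le_rfl ?_
    intro x hx
    obtain ⟨e, rfl⟩ := (thDat.mem_Vs).1 hx
    rw [hg]
    exact thDat.vv_mem _
  have hgV' : ∀ x ∈ thDat.Vs, eg⁻¹ * x * eg⁻¹⁻¹ ∈ thDat.Vs := fun x hx => by
    rw [inv_inv]; exact (hgV x).1 hx
  refine ⟨conjHom thDat.Vs eg⁻¹, ⟨Vs_le, fun x => Vs_le (hgV' x x.2), eg⁻¹, fun x => rfl⟩, ?_⟩
  intro hE
  let α : MulAut thDat.Vs :=
    { toFun := fun x => ⟨eg⁻¹ * x * eg⁻¹⁻¹, hgV' x x.2⟩
      invFun := fun x => ⟨eg * x * eg⁻¹, by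
        rw [hgV]
        have : eg⁻¹ * (eg * (x : Cfsg.Spor.Th) * eg⁻¹) * eg = x := by group
        rw [this]
        exact x.2⟩
      left_inv := fun x => Subtype.ext (by
        show eg * (eg⁻¹ * (x : Cfsg.Spor.Th) * eg⁻¹⁻¹) * eg⁻¹ = x
        group)
      right_inv := fun x => Subtype.ext (by
        show eg⁻¹ * (eg * (x : Cfsg.Spor.Th) * eg⁻¹) * eg⁻¹⁻¹ = x
        group)
      map_mul' := fun x y => Subtype.ext (by
        show eg⁻¹ * ((x : Cfsg.Spor.Th) * y) * eg⁻¹⁻¹ = (eg⁻¹ * (x : Cfsg.Spor.Th) * eg⁻¹⁻¹) * (eg⁻¹ * y * eg⁻¹⁻¹)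
        group) }
  have hα : α ∈ ETh.autGroup thDat.Vs := by
    rw [mem_autGroup_iff _ Vs_le]
    exact mem_of_apply_eq hE (fun x => rfl)
  have h2 := prune_autGroup_le hSp FTh_sat V_fn Vs_ne_Sg Dst le_Dst hα
  have h3 : thDat.vv (1, 0, 0, 0, 0) ∈ thDat.U := ((eta_vv (D := thDat) (1, 0, 0, 0, 0)).mem_U_iff th_u1_ne).2 rfl
  have h4 := (h2 ⟨_, thDat.vv_mem (1, 0, 0, 0, 0)⟩).1 h3
  have h5 : eg⁻¹ * thDat.vv (1, 0, 0, 0, 0) * eg⁻¹⁻¹ ∈ thDat.U := h4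
  rw [inv_inv, hg] at h5
  have h6 := ((eta_vv (D := thDat) (Gm (1, 0, 0, 0, 0))).mem_U_iff th_u1_ne).1 h5
  exact absurd h6 (by decide)

end Cfsg.Agent.H777.Th3
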