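import Cfsg.Agent.H777.Th3.Chain
import Cfsg.Agent.H777.Prune
import Cfsg.Agent.H777.PGrp
import Cfsg.Agent.H759.FusNormal
import Cfsg.Agent.H802.FusGroup

/-!
# The pruned fusion system on a Sylow 3-subgroup of the Thompson group (helper777)
-/

set_option autoImplicit false
set_option linter.unusedSimpArgs false
set_option linter.unusedVariables false

namespace Cfsg.Agent.H777.Th3

open Dat Cfsg Cfsg.FusionSystem Cfsg.Agent.H802 Cfsg.Agent.H777.Prune

instance fact3 : Fact (Nat.Prime 3) := ⟨Nat.prime_three⟩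

/-- the Sylow 3-subgroup -/
noncomputable def T0 : Sylow 3 Cfsg.Spor.Th := Sylow.ofCard thDat.Sg (by
  have h : (Nat.card Cfsg.Spor.Th).factorization 3 = 10 := by
    have h1 : 3 ^ 10 ∣ Nat.card Cfsg.Spor.Th := by rw [card_Th_eq]; norm_num
    have h2 := not_11
    rw [Nat.prime_three.pow_dvd_iff_le_factorization Nat.card_pos.ne'] at h1 h2
    omega
  rw [h, card_Sg th_u1_ne])

theorem T0_coe : (T0 : Subgroup Cfsg.Spor.Th) = thDat.Sg := rfl

/-- the fusion system of the Thompson group -/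
def FTh : FusionSystem thDat.Sg := groupFusionSystem thDat.Sg

theorem FTh_sat : FTh.IsSaturated 3 := groupFusionSystem_isSaturated T0

instance finSg : Finite thDat.Sg := inferInstance

theorem hSp : IsPGroup 3 thDat.Sg := isPGroup_Sg th_u1_ne

theorem Vs_le : thDat.Vs ≤ thDat.Sg := Vs_le_N.trans thDat.N_le_Sg

theorem Vs_ab : ∀ x ∈ thDat.Vs, ∀ y ∈ thDat.Vs, x * y = y * x := fun x hx y hy => Vs_comm hx hy

theorem nab : thDat.u5 * thDat.v1 ≠ thDat.v1 * thDat.u5 := by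
  intro h
  have h2 : thDat.uu (0, 0, 0, 0, 1) * thDat.v1 = thDat.v1 * thDat.uu (0, 0, 0, 0, 1) := by
    rw [uu_5]; exact h
  have h3 := act_v1 (D := thDat) (0, 0, 0, 0, 1)
  rw [mul_assoc, h2, inv_mul_cancel_left] at h3
  exact absurd (uu_injective th_u1_ne h3) (by decide)

theorem not_below_of_nab {P : Subgroup Cfsg.Spor.Th} {x y : Cfsg.Spor.Th} (hx : x ∈ P) (hy : y ∈ P)
    (h : x * y ≠ y * x) : ¬ Below FTh thDat.Vs P := fun hb => h (hb.comm Vs_ab x hx y hy)

theorem hnS : ¬ Below FTh thDat.Vs thDat.Sg :=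
  not_below_of_nab (thDat.U_le_Sg thDat.u5_mem) v1_Sg nab

/-- the pruned system -/
def ETh : FusionSystem thDat.Sg := prune FTh thDat.Vs hnS

theorem V_fn : FTh.IsFullyNormalized thDat.Vs := by
  refine ⟨Vs_le, ?_⟩
  rintro Q ⟨φ, ⟨-, hφS, g, hg⟩, hr⟩
  have hQ : ∀ x, x ∈ thDat.Vs ↔ g * x * g⁻¹ ∈ Q := by
    intro x
    rw [← hr]
    constructor
    · intro hx
      exact ⟨⟨x, hx⟩, hg _⟩
    · rintro ⟨y, hy⟩
      rw [hg] at hy
      have : (y : Cfsg.Spor.Th) = x := mul_left_cancel (mul_right_cancel hy)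
      rw [← this]
      exact y.2
  have hNle : thDat.N ≤ normalizerIn thDat.Sg thDat.Vs := by
    intro x hx
    refine ⟨thDat.N_le_Sg hx, Subgroup.mem_normalizer_iff''.2 ?_⟩
    exact conj_iff le_rfl (fun y hy => conj_Vs th_u1_ne hx hy)
  have h1 : 3 ^ 7 ≤ Nat.card (normalizerIn thDat.Sg thDat.Vs) := by
    rw [← card_N th_u1_ne]
    exact Nat.card_mono (Set.toFinite _) hNle
  refine le_trans ?_ h1
  have hX : cj (normalizerIn thDat.Sg Q) g ≤ Subgroup.normalizer (thDat.Vs : Set Cfsg.Spor.Th) := by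
    intro y hy
    rw [mem_cj] at hy
    have h2 := Subgroup.mem_normalizer_iff.1 hy.2
    rw [Subgroup.mem_normalizer_iff]
    intro v
    rw [hQ, h2, hQ]
    have e1 : g * y * g⁻¹ * (g * v * g⁻¹) * (g * y * g⁻¹)⁻¹ = g * (y * v * y⁻¹) * g⁻¹ := by group
    rw [e1]
  have hnle : normalizerIn thDat.Sg Q ≤ thDat.Sg := inf_le_left
  obtain ⟨k, hk⟩ := card_eq_pow th_u1_ne hnle
  have hk7 : k ≤ 7 := by
    by_contra hcon
    have h2 : 3 ^ 8 ∣ Nat.card (cj (normalizerIn thDat.Sg Q) g) := by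
      rw [card_cj, hk]
      exact pow_dvd_pow 3 (by omega)
    refine not_dvd_norm_Th (L := Subgroup.normalizer (thDat.Vs : Set Cfsg.Spor.Th)) ?_ ?_
      (h2.trans (Subgroup.card_dvd_of_le hX))
    · exact hNle.trans inf_le_right
    · exact fun g hg x => Subgroup.mem_normalizer_iff''.1 hg x
  rw [hk]
  exact Nat.pow_le_pow_right (by norm_num) hk7

theorem ETh_sat : ETh.IsSaturated 3 := prune_isSaturated hSp FTh_sat V_fn Vs_ab

/-- conjugation maps on nonabelian subgroups belong to the pruned system -/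
theorem conj_mem_ETh {P : Subgroup Cfsg.Spor.Th} {g x y : Cfsg.Spor.Th} (hP : P ≤ thDat.Sg) (hx : x ∈ P) (hy : y ∈ P)
    (h : x * y ≠ y * x) (hg : ∀ x ∈ P, g * x * g⁻¹ ∈ thDat.Sg) : conjHom P g ∈ ETh.Hom P :=
  mem_prune (not_below_of_nab hx hy h) ⟨hP, fun x => hg x x.2, g, fun x => rfl⟩

/-- **Strongly closed subgroups.** -/
theorem stronglyClosed_ETh {A : Subgroup Cfsg.Spor.Th} (hA : ETh.StronglyClosed A) : A = ⊥ ∨ A = thDat.Sg := by
  by_cases hA1 : A = ⊥
  · exact Or.inl hA1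
  right
  obtain ⟨hAS, hcl⟩ := hA
  have hconj : ∀ s ∈ thDat.Sg, ∀ a ∈ A, s⁻¹ * a * s ∈ A := by
    intro s hs a ha
    have h1 : conjHom A s⁻¹ ∈ ETh.Hom A := ETh.conj_mem hAS (thDat.Sg.inv_mem hs)
    have h2 := hcl A le_rfl _ h1 ⟨a, ha⟩
    have h3 : s⁻¹ * a * s⁻¹⁻¹ ∈ A := h2
    rwa [inv_inv] at h3
  refine chain A hAS hconj ?_ ?_
  · intro m e p₁ p₂ he hem h1 h2 hne h1m h2m
    set P := Subgroup.closure ({e, p₁, p₂} : Set Cfsg.Spor.Th) with hP
    have heP : e ∈ P := Subgroup.subset_closure (by simp)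
    have h1P : p₁ ∈ P := Subgroup.subset_closure (by simp)
    have h2P : p₂ ∈ P := Subgroup.subset_closure (by simp)
    have hPS : P ≤ thDat.Sg := by
      rw [hP, Subgroup.closure_le]
      rintro x (rfl | rfl | rfl)
      · exact hAS he
      · exact h1
      · exact h2
    have hPm : P ≤ thDat.Sg.comap (MulAut.conj m⁻¹).toMonoidHom := by
      rw [hP, Subgroup.closure_le]
      rintro x (rfl | rfl | rfl)
      · show m⁻¹ * x * m⁻¹⁻¹ ∈ thDat.Sg
        rw [inv_inv]; exact hem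
      · show m⁻¹ * x * m⁻¹⁻¹ ∈ thDat.Sg
        rw [inv_inv]; exact h1m
      · show m⁻¹ * x * m⁻¹⁻¹ ∈ thDat.Sg
        rw [inv_inv]; exact h2m
    have hmem := conj_mem_ETh (g := m⁻¹) hPS h1P h2P hne (fun x hx => hPm hx)
    have hz : Subgroup.zpowers e ≤ P := by rw [Subgroup.zpowers_le]; exact heP
    have hr := restrict_mem hmem hz
    have h3 := hcl (Subgroup.zpowers e) (by rw [Subgroup.zpowers_le]; exact he) _ hr ⟨e, Subgroup.mem_zpowers e⟩
    have h4 : m⁻¹ * e * m⁻¹⁻¹ ∈ A := h3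
    rwa [inv_inv] at h4
  · have hn : (A.subgroupOf thDat.Sg).Normal := by
      refine ⟨fun a ha s => ?_⟩
      have h2 := hconj _ (thDat.Sg.inv_mem s.2) _ ha
      rw [inv_inv] at h2
      exact h2
    have hne : A.subgroupOf thDat.Sg ≠ ⊥ := by
      intro h
      apply hA1
      rw [Subgroup.subgroupOf_eq_bot] at h
      rw [eq_bot_iff]
      intro x hx
      have := h.le_bot ⟨hx, hAS hx⟩
      exact this
    obtain ⟨b, hb, hb1, hbc⟩ := PGrp.inf_center_ne_bot hSp hne hn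
    have hbc' : ∀ s ∈ thDat.Sg, (b : Cfsg.Spor.Th) * s = s * b := fun s hs => by
      have := hbc ⟨s, hs⟩
      exact (congrArg Subtype.val this).symm
    obtain ⟨k, hk⟩ := center_eq th_u1_ne b.2 hbc'
    have hbA : (b : Cfsg.Spor.Th) ∈ A := hb
    rw [hk] at hbA
    have hk3 : ∀ k : ZMod 3, k = 0 ∨ k = 1 ∨ k = 2 := by decide
    replace hk3 := hk3 k
    rcases hk3 with rfl | rfl | rfl
    · exact absurd (Subtype.ext (by rw [hk]; simp)) hb1
    · simpa [ZMod.val_one] using hbA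
    · have h2 := A.pow_mem hbA 2
      have h3 : (thDat.u1 ^ (2 : ZMod 3).val) ^ 2 = thDat.u1 := by
        show (thDat.u1 ^ 2) ^ 2 = thDat.u1
        have h := thDat.c1
        calc (thDat.u1 ^ 2) ^ 2 = thDat.u1 ^ 3 * thDat.u1 := by rw [← pow_mul, ← pow_succ]
          _ = thDat.u1 := by rw [h, one_mul]
      rwa [h3] at h2

end Cfsg.Agent.H777.Th3
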